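import Mathlib
import Cfsg.Agent.Lib.Helper27.Extra4
import Cfsg.Agent.Lib.Helper16.Cores

set_option autoImplicit false

/-! The setting of singular involutions: `Q x = O_2(C_G(x))`, `Q z` extraspecial and self-centralizing. -/

namespace Cfsg.Agent.Lib.Helper10

open Cfsg Cfsg.Agent.Lib.Helper27

variable {G : Type*} [Group G] [Finite G]

theorem sing_conj (Q : G → Subgroup G)
    (hQ : ∀ x : G, Q x = (Cfsg.pCore 2 ↥(Subgroup.centralizer ({x} : Set G))).map
      (Subgroup.centralizer ({x} : Set G)).subtype)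
    (g x : G) : Q (g * x * g⁻¹) = (Q x).map (MulAut.conj g).toMonoidHom := by
  have : Fact (Nat.Prime 2) := ⟨Nat.prime_two⟩
  have h1 : Subgroup.centralizer ({g * x * g⁻¹} : Set G)
      = (Subgroup.centralizer ({x} : Set G)).map (MulAut.conj g).toMonoidHom := by
    ext y
    rw [mem_map_conj_iff, Subgroup.mem_centralizer_singleton_iff,
      Subgroup.mem_centralizer_singleton_iff]
    constructor
    · intro h
      calc g⁻¹ * y * g * x = g⁻¹ * (y * (g * x * g⁻¹)) * g := by group
        _ = g⁻¹ * ((g * x * g⁻¹) * y) * g := by rw [h]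
        _ = x * (g⁻¹ * y * g) := by group
    · intro h
      calc y * (g * x * g⁻¹) = g * (g⁻¹ * y * g * x) * g⁻¹ := by group
        _ = g * (x * (g⁻¹ * y * g)) * g⁻¹ := by rw [h]
        _ = g * x * g⁻¹ * y := by group
  rw [hQ, hQ, h1]
  exact Cfsg.Agent.Lib.Helper16.pCoreOf_conj _ g

theorem sing_ES (Q : G → Subgroup G)
    (hQ : ∀ x : G, Q x = (Cfsg.pCore 2 ↥(Subgroup.centralizer ({x} : Set G))).map
      (Subgroup.centralizer ({x} : Set G)).subtype)
    (z : G) (hz : orderOf z = 2) (hE : Cfsg.IsExtraspecial 2 ↥(Q z))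
    (hC : Subgroup.centralizer ((Q z : Subgroup G) : Set G) ≤ Q z) : ES (Q z) z := by
  have : Fact (Nat.Prime 2) := ⟨Nat.prime_two⟩
  have hQ' : Q z = pCoreOf 2 (Subgroup.centralizer ({z} : Set G)) := hQ z
  have hz1 : z ≠ 1 := by
    intro h; rw [h, orderOf_one] at hz; omega
  have hzz : z * z = 1 := by
    rw [← pow_two, ← hz]; exact pow_orderOf_eq_one z
  have hle : Q z ≤ Subgroup.centralizer ({z} : Set G) := by
    rw [hQ']; exact Cfsg.Agent.Lib.Helper16.pCoreOf_le _
  have hzQ : z ∈ Q z := by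
    have h1 : twoSub z hzz ≤ pCoreOf 2 (Subgroup.centralizer ({z} : Set G)) := by
      apply Cfsg.Agent.Lib.Helper16.le_pCoreOf
      · rintro x (rfl | rfl)
        · exact Subgroup.one_mem _
        · exact Subgroup.mem_centralizer_singleton_iff.2 rfl
      · intro c hc
        have hc' := Subgroup.mem_centralizer_singleton_iff.1 hc
        apply mem_normalizer_of_conj_mem_finite
        rintro x (rfl | rfl)
        · left; group
        · right; rw [hc']; group
      · rintro ⟨x, hx⟩
        refine ⟨1, Subtype.ext ?_⟩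
        rcases hx with rfl | rfl
        · simp
        · simpa [pow_two] using hzz
    rw [hQ']; exact h1 (Or.inr rfl)
  have hzc : z ∈ (Subgroup.center ↥(Q z)).map (Q z).subtype := by
    rw [mem_center_map_iff]
    refine ⟨hzQ, fun q hq => ?_⟩
    have := Subgroup.mem_centralizer_singleton_iff.1 (hle hq)
    exact this
  have hL2 : Subgroup.centralizer ((Q z : Subgroup G) : Set G)
      = (Subgroup.center ↥(Q z)).map (Q z).subtype := by
    ext x
    rw [mem_center_map_iff, Subgroup.mem_centralizer_iff]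
    constructor
    · intro h
      refine ⟨hC (Subgroup.mem_centralizer_iff.2 h), fun q hq => ?_⟩
      exact h q hq
    · intro h q hq
      exact h.2 q hq
  have hL3 : Subgroup.centralizer (((Subgroup.center ↥(Q z)).map (Q z).subtype : Subgroup G) : Set G)
      ≤ Subgroup.normalizer ((Q z : Subgroup G) : Set G) := by
    intro c hc
    have h1 : c ∈ Subgroup.centralizer ({z} : Set G) := by
      rw [Subgroup.mem_centralizer_singleton_iff]
      exact (Subgroup.mem_centralizer_iff.1 hc z hzc).symm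
    rw [hQ']
    exact Cfsg.Agent.Lib.Helper16.le_normalizer_pCoreOf _ h1
  obtain ⟨z', hES, hmem⟩ := ES.of_extra (Q z) hE hL2 hL3
  rcases (hmem z).1 hzc with h | h
  · exact absurd h hz1
  · rw [h] at hES ⊢
    rw [← h] at hES ⊢
    exact hES

theorem sing_ES_conj (Q : G → Subgroup G)
    (hQ : ∀ x : G, Q x = (Cfsg.pCore 2 ↥(Subgroup.centralizer ({x} : Set G))).map
      (Subgroup.centralizer ({x} : Set G)).subtype)
    (z : G) (hz : orderOf z = 2) (hE : Cfsg.IsExtraspecial 2 ↥(Q z))
    (hC : Subgroup.centralizer ((Q z : Subgroup G) : Set G) ≤ Q z) (g : G) :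
    ES (Q (g * z * g⁻¹)) (g * z * g⁻¹) := by
  rw [sing_conj Q hQ]; exact (sing_ES Q hQ z hz hE hC).conj g

/-- `Q u ∩ Q v ≤ Q (u v)` for orthogonal `u`, `v`. -/
theorem sing_inf_le (Q : G → Subgroup G)
    (hQ : ∀ x : G, Q x = (Cfsg.pCore 2 ↥(Subgroup.centralizer ({x} : Set G))).map
      (Subgroup.centralizer ({x} : Set G)).subtype)
    {u v : G} (hu : ES (Q u) u) (hvu : v ∈ Q u) (huv : u ∈ Q v) (hv1 : v ≠ 1) (hne : v ≠ u) :
    Q u ⊓ Q v ≤ Q (u * v) := by
  obtain ⟨q, hq, hqv⟩ := hu.exists_conj hvu hv1 hne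
  rw [← hqv, sing_conj Q hQ]
  intro a ha
  rw [mem_map_conj_iff]
  have e : q⁻¹ * a * q = (q⁻¹ * a * q⁻¹⁻¹ * a⁻¹) * a := by group
  rw [e]
  refine (Q v).mul_mem ?_ ha.2
  rcases hu.comm q⁻¹ ((Q u).inv_mem hq) a ha.1 with h | h
  · rw [h]; exact (Q v).one_mem
  · rw [h]; exact huv

end Cfsg.Agent.Lib.Helper10
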