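import Mathlib
import Cfsg.Agent.Lib.Helper10.Singular

set_option autoImplicit false

/-! Nondegeneracy of the commutator form on an extraspecial group, elementwise. -/

namespace Cfsg.Agent.Lib.Helper10

open Cfsg Cfsg.Agent.Lib.Helper27

variable {G : Type*} [Group G]

theorem ES_conj_cases {Q : Subgroup G} {u : G} (h : ES Q u) {g a : G} (hg : g ∈ Q) (ha : a ∈ Q) :
    g * a = a * g ∨ g * a * g⁻¹ = u * a := by
  rcases h.comm g hg a ha with h1 | h1
  · left; exact comm_of_commutator_eq_one h1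
  · right; rw [← h1]; group

/-- For `x` outside the subgroup generated by `S` and the centre, some element of `Q` centralizes
`S` and does not centralize `x`. -/
theorem ES_exists_perp {Q : Subgroup G} {u : G} (h : ES Q u) [DecidableEq G] (S : Finset G) :
    (∀ s ∈ S, s ∈ Q) → ∀ x ∈ Q, x ∉ Subgroup.closure ((S : Set G) ∪ {u}) →
      ∃ g ∈ Q, (∀ s ∈ S, g * s = s * g) ∧ g * x * g⁻¹ = u * x := by
  induction S using Finset.induction_on with
  | empty =>
    intro _ x hx hxn
    have hx1 : x ≠ 1 := fun e => hxn (e ▸ Subgroup.one_mem _)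
    have hxu : x ≠ u := fun e => hxn (e ▸ Subgroup.subset_closure (by simp))
    obtain ⟨q, hq, hqx⟩ := h.exists_conj hx hx1 hxu
    exact ⟨q, hq, by simp, hqx⟩
  | insert a S _ ih =>
    intro hS x hx hxn
    have haQ : a ∈ Q := hS a (Finset.mem_insert_self a S)
    have hSQ : ∀ s ∈ S, s ∈ Q := fun s hs => hS s (Finset.mem_insert_of_mem hs)
    have hmono : Subgroup.closure ((S : Set G) ∪ {u})
        ≤ Subgroup.closure (((insert a S : Finset G) : Set G) ∪ {u}) := by
      apply Subgroup.closure_mono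
      intro y hy
      rcases hy with hy | hy
      · left; simp only [Finset.coe_insert]; right; exact hy
      · right; exact hy
    have haC : a ∈ Subgroup.closure (((insert a S : Finset G) : Set G) ∪ {u}) :=
      Subgroup.subset_closure (by left; simp)
    obtain ⟨g₁, hg₁, hg₁S, hg₁x⟩ := ih hSQ x hx (fun e => hxn (hmono e))
    rcases ES_conj_cases h hg₁ haQ with h1a | h1a
    · refine ⟨g₁, hg₁, ?_, hg₁x⟩
      intro s hs
      rcases Finset.mem_insert.1 hs with rfl | hs
      · exact h1a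
      · exact hg₁S s hs
    have hxa : x * a ∉ Subgroup.closure ((S : Set G) ∪ {u}) := by
      intro e
      apply hxn
      have : x = (x * a) * a⁻¹ := by group
      rw [this]
      exact Subgroup.mul_mem _ (hmono e) (Subgroup.inv_mem _ haC)
    obtain ⟨g₂, hg₂, hg₂S, hg₂x⟩ := ih hSQ (x * a) (Q.mul_mem hx haQ) hxa
    rcases ES_conj_cases h hg₂ haQ with h2a | h2a
    · refine ⟨g₂, hg₂, ?_, ?_⟩
      · intro s hs
        rcases Finset.mem_insert.1 hs with rfl | hs
        · exact h2a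
        · exact hg₂S s hs
      · have e2 : g₂ * a * g₂⁻¹ = a := by rw [h2a]; group
        calc g₂ * x * g₂⁻¹ = (g₂ * (x * a) * g₂⁻¹) * (g₂ * a * g₂⁻¹)⁻¹ := by group
          _ = u * x := by rw [hg₂x, e2]; group
    · have hxu : x * u = u * x := h.cen x hx
      have e3 : g₂ * x * g₂⁻¹ = x := by
        calc g₂ * x * g₂⁻¹ = (g₂ * (x * a) * g₂⁻¹) * (g₂ * a * g₂⁻¹)⁻¹ := by group
          _ = u * x * u⁻¹ := by rw [hg₂x, h2a]; group
          _ = x := by rw [← hxu]; group
      have hg₁u : g₁ * u * g₁⁻¹ = u := by rw [h.cen g₁ hg₁]; group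
      refine ⟨g₁ * g₂, Q.mul_mem hg₁ hg₂, ?_, ?_⟩
      · intro s hs
        rcases Finset.mem_insert.1 hs with rfl | hs
        · have e4 : g₁ * g₂ * s * (g₁ * g₂)⁻¹ = s := by
            calc g₁ * g₂ * s * (g₁ * g₂)⁻¹ = g₁ * (g₂ * s * g₂⁻¹) * g₁⁻¹ := by group
              _ = (g₁ * u * g₁⁻¹) * (g₁ * s * g₁⁻¹) := by rw [h2a]; group
              _ = u * (u * s) := by rw [hg₁u, h1a]
              _ = s := by rw [← mul_assoc, h.sq, one_mul]
          calc g₁ * g₂ * s = (g₁ * g₂ * s * (g₁ * g₂)⁻¹) * (g₁ * g₂) := by group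
            _ = s * (g₁ * g₂) := by rw [e4]
        · rw [mul_assoc, hg₂S s hs, ← mul_assoc, hg₁S s hs, mul_assoc]
      · calc g₁ * g₂ * x * (g₁ * g₂)⁻¹ = g₁ * (g₂ * x * g₂⁻¹) * g₁⁻¹ := by group
          _ = u * x := by rw [e3, hg₁x]

end Cfsg.Agent.Lib.Helper10
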