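import Mathlib
import Cfsg.Agent.Lib.Helper10.Singular

set_option autoImplicit false

/-! The width one case: if `Q` has order at most `8` and contains a noncentral involution, then
`C_G(z)` is a `2`-group. -/

namespace Cfsg.Agent.Lib.Helper10

open Cfsg Cfsg.Agent.Lib.Helper27

variable {G : Type*} [Group G] [Finite G]

theorem ES_small {Q : Subgroup G} {z y : G} (h : ES Q z) (hy : y ∈ Q) (hyy : y * y = 1)
    (hy1 : y ≠ 1) (hyz : y ≠ z) (hcard : Nat.card Q ≤ 8) :
    ∀ c : G, c * z = z * c → c ^ 16 = 1 := by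
  classical
  obtain ⟨q₀, hq₀, hq₀y⟩ := h.exists_conj hy hy1 hyz
  have hzy : y * z = z * y := h.cen y hy
  have hz1 := h.ne
  have hzz := h.sq
  have hzy1 : z * y ≠ 1 := by
    intro e
    apply hyz
    calc y = (z * z) * y := by rw [hzz, one_mul]
      _ = z * (z * y) := by group
      _ = z := by rw [e, mul_one]
  have hU4 : ∀ u ∈ Q, u * y = y * u → u = 1 ∨ u = z ∨ u = y ∨ u = z * y := by
    obtain ⟨U, hUdef⟩ : ∃ U : Subgroup G, U = Q ⊓ Subgroup.centralizer {y} := ⟨_, rfl⟩
    have hUQ : U ≤ Q := hUdef ▸ inf_le_left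
    have hmemU : ∀ u, u ∈ U ↔ u ∈ Q ∧ u * y = y * u := by
      intro u
      rw [hUdef, Subgroup.mem_inf, Subgroup.mem_centralizer_singleton_iff]
    have hq₀U : q₀ ∉ U := by
      intro hq
      have h1 := ((hmemU q₀).1 hq).2
      apply hz1
      have : y = z * y := by rw [← hq₀y, h1]; group
      exact (mul_eq_right.1 this.symm)
    have hsub : (↑({1, z, y, z * y} : Finset G) : Set G) ⊆ (U : Set G) := by
      intro u hu
      simp only [Finset.coe_insert, Finset.coe_singleton, Set.mem_insert_iff,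
        Set.mem_singleton_iff] at hu
      rw [SetLike.mem_coe, hmemU]
      rcases hu with rfl | rfl | rfl | rfl
      · exact ⟨Q.one_mem, by simp⟩
      · exact ⟨h.mem, hzy.symm⟩
      · exact ⟨hy, rfl⟩
      · exact ⟨Q.mul_mem h.mem hy, by rw [← mul_assoc, hzy]⟩
    have h4 : ({1, z, y, z * y} : Finset G).card = 4 := by
      rw [Finset.card_insert_of_notMem, Finset.card_insert_of_notMem,
        Finset.card_insert_of_notMem, Finset.card_singleton]
      · simp [hz1]
      · simp [hyz.symm, hy1]
      · simp [hz1.symm, hy1.symm, hzy1.symm]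
    have hUge : 4 ≤ Nat.card U := by
      calc 4 = (↑({1, z, y, z * y} : Finset G) : Set G).ncard := by rw [Set.ncard_coe_finset, h4]
        _ ≤ (U : Set G).ncard := Set.ncard_le_ncard hsub (Set.toFinite _)
        _ = Nat.card U := rfl
    have hdvd : Nat.card U ∣ Nat.card Q := Subgroup.card_dvd_of_le hUQ
    have hne : Nat.card U ≠ Nat.card Q := by
      intro e
      have := Subgroup.eq_of_le_of_card_ge hUQ e.ge
      exact hq₀U (this ▸ hq₀)
    have hUle : Nat.card U ≤ 4 := by
      obtain ⟨k, hk⟩ := hdvd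
      have hQpos : 0 < Nat.card Q := Nat.card_pos
      rcases k with _ | _ | k
      · omega
      · omega
      · nlinarith
    have heq : (↑({1, z, y, z * y} : Finset G) : Set G) = (U : Set G) :=
      Set.eq_of_subset_of_ncard_le hsub (by rw [Set.ncard_coe_finset, h4]; exact hUle)
        (Set.toFinite _)
    intro u hu huy
    have h5 : u ∈ (U : Set G) := (hmemU u).2 ⟨hu, huy⟩
    rw [← heq] at h5
    simpa using h5
  obtain ⟨f, hf, hfy, hff⟩ : ∃ f ∈ Q, f * y * f⁻¹ = z * y ∧ f * f = z := by
    rcases h.sqs q₀ hq₀ with hs | hs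
    · refine ⟨q₀ * y, Q.mul_mem hq₀ hy, ?_, ?_⟩
      · calc q₀ * y * y * (q₀ * y)⁻¹ = q₀ * y * q₀⁻¹ := by group
          _ = z * y := hq₀y
      · calc q₀ * y * (q₀ * y) = (q₀ * y * q₀⁻¹) * (q₀ * q₀) * y := by group
          _ = z * y * 1 * y := by rw [hq₀y, hs]
          _ = z := by rw [mul_one, mul_assoc, hyy, mul_one]
    · exact ⟨q₀, hq₀, hq₀y, hs⟩
  have hQ8 : ∀ q ∈ Q, q = 1 ∨ q = z ∨ q = y ∨ q = z * y ∨ q = f ∨ q = f * z ∨ q = f * y ∨
      q = f * (z * y) := by
    intro q hq
    rcases h.coset hy hfy hq with h1 | h1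
    · rcases hU4 q hq h1 with e | e | e | e <;> simp [e]
    · have e' : ∀ x, f⁻¹ * q = x → q = f * x := fun x hx => by rw [← hx]; group
      rcases hU4 _ (Q.mul_mem (Q.inv_mem hf) hq) h1 with e | e | e | e
      · right; right; right; right; left; simpa using e' _ e
      · right; right; right; right; right; left; exact e' _ e
      · right; right; right; right; right; right; left; exact e' _ e
      · right; right; right; right; right; right; right; exact e' _ e
  have hfz : f * z = z * f := h.cen f hf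
  have sq_zy : z * y * (z * y) = 1 := by
    calc z * y * (z * y) = z * (y * z) * y := by group
      _ = z * (z * y) * y := by rw [hzy]
      _ = (z * z) * (y * y) := by group
      _ = 1 := by rw [hzz, hyy, one_mul]
  have sq_fz : f * z * (f * z) = z := by
    calc f * z * (f * z) = f * (z * f) * z := by group
      _ = f * (f * z) * z := by rw [hfz]
      _ = (f * f) * (z * z) := by group
      _ = z := by rw [hff, hzz, mul_one]
  have sq_fy : f * y * (f * y) = 1 := by
    calc f * y * (f * y) = (f * y * f⁻¹) * (f * f) * y := by group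
      _ = z * y * z * y := by rw [hfy, hff]
      _ = z * y * (z * y) := by group
      _ = 1 := sq_zy
  have sq_fzy : f * (z * y) * (f * (z * y)) = 1 := by
    calc f * (z * y) * (f * (z * y)) = (f * z) * (y * (f * z)) * y := by group
      _ = (f * z) * y * (f * z) * y := by group
      _ = (z * f) * y * (f * z) * y := by rw [hfz]
      _ = z * (f * y * (f * y)) * (y⁻¹ * z * y) := by group
      _ = z * (y⁻¹ * (z * y)) := by rw [sq_fy]; group
      _ = z * (y⁻¹ * (y * z)) := by rw [hzy]
      _ = z * z := by group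
      _ = 1 := hzz
  have step1 : ∀ c, c * z = z * c → c * f * c⁻¹ = f ∨ c * f * c⁻¹ = f * z := by
    intro c hc
    have hq : c * f * c⁻¹ ∈ Q := h.nor c hc f hf
    have hsq : c * f * c⁻¹ * (c * f * c⁻¹) = z := by
      calc c * f * c⁻¹ * (c * f * c⁻¹) = c * (f * f) * c⁻¹ := by group
        _ = z := by rw [hff, hc]; group
    rcases hQ8 _ hq with e | e | e | e | e | e | e | e
    · rw [e] at hsq; exact absurd (by simpa using hsq.symm) hz1
    · rw [e, hzz] at hsq; exact absurd hsq.symm hz1
    · rw [e, hyy] at hsq; exact absurd hsq.symm hz1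
    · rw [e, sq_zy] at hsq; exact absurd hsq.symm hz1
    · exact Or.inl e
    · exact Or.inr e
    · rw [e, sq_fy] at hsq; exact absurd hsq.symm hz1
    · rw [e, sq_fzy] at hsq; exact absurd hsq.symm hz1
  have step2 : ∀ c, c * z = z * c → (c * c) * f = f * (c * c) := by
    intro c hc
    have hcz : c * z * c⁻¹ = z := by rw [hc]; group
    have : c * c * f * (c * c)⁻¹ = f := by
      rcases step1 c hc with e | e
      · calc c * c * f * (c * c)⁻¹ = c * (c * f * c⁻¹) * c⁻¹ := by group
          _ = f := by rw [e, e]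
      · calc c * c * f * (c * c)⁻¹ = c * (c * f * c⁻¹) * c⁻¹ := by group
          _ = c * (f * z) * c⁻¹ := by rw [e]
          _ = (c * f * c⁻¹) * (c * z * c⁻¹) := by group
          _ = f * z * z := by rw [e, hcz]
          _ = f := by rw [mul_assoc, hzz, mul_one]
    calc c * c * f = (c * c * f * (c * c)⁻¹) * (c * c) := by group
      _ = f * (c * c) := by rw [this]
  have step3 : ∀ d, d * z = z * d → d * f = f * d →
      ∃ w, d * w = w * d ∧ (w * w = 1 ∨ w * w = z) ∧ d * y * d⁻¹ = w * y := by
    intro d hd hdf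
    have hq : d * y * d⁻¹ ∈ Q := h.nor d hd y hy
    have hsq : d * y * d⁻¹ * (d * y * d⁻¹) = 1 := by
      calc d * y * d⁻¹ * (d * y * d⁻¹) = d * (y * y) * d⁻¹ := by group
        _ = 1 := by rw [hyy]; group
    have hback : y = d⁻¹ * (d * y * d⁻¹) * d := by group
    rcases hQ8 _ hq with e | e | e | e | e | e | e | e
    · exfalso; apply hy1; rw [hback, e]; group
    · exfalso; apply hyz; rw [hback, e, mul_assoc, ← hd]; group
    · exact ⟨1, by simp, Or.inl (by simp), by rw [e, one_mul]⟩
    · exact ⟨z, hd, Or.inl hzz, e⟩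
    · rw [e, hff] at hsq; exact absurd hsq hz1
    · rw [e, sq_fz] at hsq; exact absurd hsq hz1
    · exact ⟨f, hdf, Or.inr hff, e⟩
    · refine ⟨f * z, ?_, Or.inr sq_fz, by rw [e]; group⟩
      rw [← mul_assoc, hdf, mul_assoc, hd, mul_assoc]
  intro c hc
  obtain ⟨d, hddef⟩ : ∃ d, d = c * c := ⟨_, rfl⟩
  have hdz : d * z = z * d := by
    rw [hddef, mul_assoc, hc, ← mul_assoc, hc, mul_assoc]
  have hdf : d * f = f * d := by rw [hddef]; exact step2 c hc
  obtain ⟨w, hdw, hww, hdy⟩ := step3 d hdz hdf
  obtain ⟨e, hedef⟩ : ∃ e, e = d * d := ⟨_, rfl⟩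
  have hez : e * z = z * e := by
    rw [hedef, mul_assoc, hdz, ← mul_assoc, hdz, mul_assoc]
  have hef : e * f = f * e := by
    rw [hedef, mul_assoc, hdf, ← mul_assoc, hdf, mul_assoc]
  have hey : e * y * e⁻¹ = (w * w) * y := by
    have hdw' : d * w * d⁻¹ = w := by rw [hdw]; group
    calc e * y * e⁻¹ = d * (d * y * d⁻¹) * d⁻¹ := by rw [hedef]; group
      _ = d * (w * y) * d⁻¹ := by rw [hdy]
      _ = (d * w * d⁻¹) * (d * y * d⁻¹) := by group
      _ = w * w * y := by rw [hdw', hdy, mul_assoc]
  obtain ⟨k, hkdef⟩ : ∃ k, k = e * e := ⟨_, rfl⟩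
  have hkz : k * z = z * k := by
    rw [hkdef, mul_assoc, hez, ← mul_assoc, hez, mul_assoc]
  have hkf : k * f = f * k := by
    rw [hkdef, mul_assoc, hef, ← mul_assoc, hef, mul_assoc]
  have hky : k * y = y * k := by
    have hez' : e * z * e⁻¹ = z := by rw [hez]; group
    have : k * y * k⁻¹ = y := by
      rcases hww with e1 | e1
      · rw [e1, one_mul] at hey
        calc k * y * k⁻¹ = e * (e * y * e⁻¹) * e⁻¹ := by rw [hkdef]; group
          _ = y := by rw [hey, hey]
      · rw [e1] at hey
        calc k * y * k⁻¹ = e * (e * y * e⁻¹) * e⁻¹ := by rw [hkdef]; group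
          _ = e * (z * y) * e⁻¹ := by rw [hey]
          _ = (e * z * e⁻¹) * (e * y * e⁻¹) := by group
          _ = z * (z * y) := by rw [hez', hey]
          _ = y := by rw [← mul_assoc, hzz, one_mul]
    calc k * y = (k * y * k⁻¹) * k := by group
      _ = y * k := by rw [this]
  have hkQ : ∀ q ∈ Q, q * k = k * q := by
    have hz' : z ∈ Subgroup.centralizer ({k} : Set G) :=
      Subgroup.mem_centralizer_singleton_iff.2 hkz.symm
    have hy' : y ∈ Subgroup.centralizer ({k} : Set G) :=
      Subgroup.mem_centralizer_singleton_iff.2 hky.symm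
    have hf' : f ∈ Subgroup.centralizer ({k} : Set G) :=
      Subgroup.mem_centralizer_singleton_iff.2 hkf.symm
    intro q hq
    apply Subgroup.mem_centralizer_singleton_iff.1
    rcases hQ8 q hq with e | e | e | e | e | e | e | e <;> rw [e]
    · exact Subgroup.one_mem _
    · exact hz'
    · exact hy'
    · exact Subgroup.mul_mem _ hz' hy'
    · exact hf'
    · exact Subgroup.mul_mem _ hf' hz'
    · exact Subgroup.mul_mem _ hf' hy'
    · exact Subgroup.mul_mem _ hf' (Subgroup.mul_mem _ hz' hy')
  have hkk : k * k = 1 := by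
    rcases h.cent k hkQ with e1 | e1
    · rw [e1, one_mul]
    · rw [e1]; exact hzz
  calc c ^ 16 = (((c ^ 2) ^ 2) ^ 2) ^ 2 := by rw [← pow_mul, ← pow_mul, ← pow_mul]
    _ = k * k := by rw [hkdef, hedef, hddef]; simp only [pow_two]
    _ = 1 := hkk

end Cfsg.Agent.Lib.Helper10
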